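import Mathlib
import Cfsg.Agent.Lib.Helper71.MulChar.Defs
import Cfsg.Agent.Lib.Helper80.NonVanish
import Cfsg.Agent.Lib.Helper15.LinearMul
import Cfsg.Agent.S0154

set_option autoImplicit false
open Cfsg

namespace Cfsg.Agent.Lib.Helper71.MulChar

open Cfsg.Agent.Lib.Helper74

variable {G : Type*} [Group G] [Finite G]

theorem norm_linear (χ : IrrCharacter G) (h1 : (χ : G → ℂ) 1 = 1) (g : G) :
    ‖(χ : G → ℂ) g‖ ^ 2 = 1 := by
  have h := Cfsg.Agent.Lib.Helper15.linear_mul_conj (IrrCharacter.isCharacter χ) h1 g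
  rw [Complex.mul_conj, Complex.normSq_eq_norm_sq] at h
  exact_mod_cast h

open Classical in
theorem col_split (g : G) :
    (Nat.card (Subgroup.centralizer ({g} : Set G)) : ℝ) = ((commutator G).index : ℝ) +
      ∑ χ ∈ Finset.univ.filter (fun χ : IrrCharacter G => (χ : G → ℂ) 1 ≠ 1),
        ‖(χ : G → ℂ) g‖ ^ 2 := by
  haveI := Fintype.ofFinite G
  rw [← Cfsg.Agent.Lib.Helper80.sum_irr_norm_sq g,
    ← Finset.sum_filter_add_sum_filter_not Finset.univ (fun χ : IrrCharacter G => (χ : G → ℂ) 1 = 1)]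
  congr 1
  rw [Finset.sum_congr rfl (fun χ hχ => norm_linear χ (Finset.mem_filter.1 hχ).2 g)]
  rw [Finset.sum_const, nsmul_eq_mul, mul_one, ← Cfsg.Agent.S0154.result (G := G)]
  congr 1
  rw [Nat.card_eq_fintype_card, Fintype.card_subtype]

theorem vanish_of_card_le (g : G)
    (h : Nat.card (Subgroup.centralizer ({g} : Set G)) ≤ (commutator G).index)
    (χ : IrrCharacter G) (hχ : (χ : G → ℂ) 1 ≠ 1) : (χ : G → ℂ) g = 0 := by
  classical
  have h1 := col_split g
  have h2 : (Nat.card (Subgroup.centralizer ({g} : Set G)) : ℝ) ≤ ((commutator G).index : ℝ) := by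
    exact_mod_cast h
  have h3 : ∑ χ ∈ Finset.univ.filter (fun χ : IrrCharacter G => (χ : G → ℂ) 1 ≠ 1),
        ‖(χ : G → ℂ) g‖ ^ 2 ≤ 0 := by linarith
  have h4 := (Finset.sum_eq_zero_iff_of_nonneg (fun χ _ => by positivity)).1
    (le_antisymm h3 (Finset.sum_nonneg (fun χ _ => by positivity))) χ
    (Finset.mem_filter.2 ⟨Finset.mem_univ _, hχ⟩)
  simpa using h4

theorem card_eq_of_vanish (g : G)
    (h : ∀ χ : IrrCharacter G, (χ : G → ℂ) 1 ≠ 1 → (χ : G → ℂ) g = 0) :
    Nat.card (Subgroup.centralizer ({g} : Set G)) = (commutator G).index := by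
  classical
  have h1 := col_split g
  rw [Finset.sum_eq_zero (fun χ hχ => by rw [h χ (Finset.mem_filter.1 hχ).2]; simp), add_zero] at h1
  exact_mod_cast h1

end Cfsg.Agent.Lib.Helper71.MulChar
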