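import Mathlib
import Cfsg.Agent.Lib.Helper71.MulChar.Defs
import Cfsg.Agent.Lib.Helper71.MulChar.Col

set_option autoImplicit false
open Cfsg

namespace Cfsg.Agent.Lib.Helper71.MulChar

theorem prime_eq_of_order' {G : Type*} [Group G] {l p a k : ℕ} (hl : l.Prime) (hp : p.Prime)
    {x : G} (hk : x ^ l ^ k = 1) (hx : x ≠ 1) (hxo : orderOf x = p ^ a) : p = l := by
  have h1 : orderOf x ∣ l ^ k := orderOf_dvd_of_pow_eq_one hk
  have ha : a ≠ 0 := by
    rintro rfl
    rw [pow_zero, orderOf_eq_one_iff] at hxo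
    exact hx hxo
  have h2 : p ∣ l ^ k := (dvd_pow_self p ha).trans (hxo ▸ h1)
  exact (Nat.prime_dvd_prime_iff_eq hp hl).1 (hp.dvd_of_dvd_pow h2)

theorem card_le_index_of_inf_eq_bot {G : Type*} [Group G] [Finite G] (K D : Subgroup G) [D.Normal]
    (h : D ⊓ K = ⊥) : Nat.card K ≤ D.index := by
  have h1 : D.relIndex K = Nat.card K := by
    rw [← Subgroup.inf_relIndex_right, h, Subgroup.relIndex_bot_left]
  rw [← h1]
  exact Nat.le_of_dvd (Nat.pos_of_ne_zero Subgroup.index_ne_zero_of_finite)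
    (Subgroup.relIndex_dvd_index_of_normal D K)

theorem pieceB {G : Type*} [Group G] [Finite G] (h : Alt3 G) : H1 G := by
  obtain ⟨p, hp, P, A, hPn, hAc, hA1, hcop, hAP, hCc, hDn, hCD, hCD', hfpf⟩ := h
  set D := ⁅A, (P : Subgroup G)⁆ with hD
  set C := (P : Subgroup G) ⊓ Subgroup.centralizer (A : Set G) with hC
  have hDP : D ≤ (P : Subgroup G) := by rw [← hCD]; exact le_sup_right
  have hCP : C ≤ (P : Subgroup G) := inf_le_left
  -- (a)
  have hdec : ∀ g : G, ∃ a ∈ A, ∃ c ∈ C, ∃ d ∈ D, g = a * c * d := by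
    intro g
    have hg : g ∈ A ⊔ (P : Subgroup G) := by rw [hAP]; trivial
    have h1 : g ∈ ((A ⊔ (P : Subgroup G) : Subgroup G) : Set G) := hg
    rw [Subgroup.mul_normal] at h1
    obtain ⟨a, ha, u, hu, rfl⟩ := h1
    have hu' : u ∈ ((C ⊔ D : Subgroup G) : Set G) := by rw [hCD]; exact hu
    rw [Subgroup.mul_normal] at hu'
    obtain ⟨c, hc, d, hd, rfl⟩ := hu'
    exact ⟨a, ha, c, hc, d, hd, by group⟩
  have hAcomm : ∀ a ∈ A, ∀ a' ∈ A, a * a' = a' * a := by
    intro a ha a' ha'
    have := hAc.isMulCommutative.is_comm.comm (⟨a, ha⟩ : A) ⟨a', ha'⟩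
    exact congrArg Subtype.val this
  have hCcomm : ∀ c ∈ C, ∀ c' ∈ C, c * c' = c' * c := by
    intro c hc c' hc'
    have := hCc.is_comm.comm (⟨c, hc⟩ : C) ⟨c', hc'⟩
    exact congrArg Subtype.val this
  have hACcomm : ∀ a ∈ A, ∀ c ∈ C, a * c = c * a := by
    intro a ha c hc
    exact (Subgroup.mem_centralizer_iff.1 hc.2 a ha)
  -- (b)
  have hG' : commutator G ≤ D := by
    rw [commutator_def, Subgroup.commutator_le]
    intro g _ k _
    obtain ⟨a, ha, c, hc, d, hd, rfl⟩ := hdec g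
    obtain ⟨a', ha', c', hc', d', hd', rfl⟩ := hdec k
    rw [← QuotientGroup.eq_one_iff, commutatorElement_def]
    have e1 : ((a * c * d : G) : G ⧸ D) = ((a * c : G) : G ⧸ D) := by
      rw [QuotientGroup.mk_mul, (QuotientGroup.eq_one_iff d).2 hd, mul_one]
    have e2 : ((a' * c' * d' : G) : G ⧸ D) = ((a' * c' : G) : G ⧸ D) := by
      rw [QuotientGroup.mk_mul, (QuotientGroup.eq_one_iff d').2 hd', mul_one]
    have e3 : (a * c) * (a' * c') = (a' * c') * (a * c) := by
      calc (a * c) * (a' * c') = a * (c * a') * c' := by group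
        _ = a * (a' * c) * c' := by rw [hACcomm a' ha' c hc]
        _ = (a * a') * (c * c') := by group
        _ = (a' * a) * (c' * c) := by rw [hAcomm a ha a' ha', hCcomm c hc c' hc']
        _ = a' * (a * c') * c := by group
        _ = a' * (c' * a) * c := by rw [hACcomm a ha c' hc']
        _ = (a' * c') * (a * c) := by group
    rw [QuotientGroup.mk_mul, QuotientGroup.mk_mul, QuotientGroup.mk_mul, QuotientGroup.mk_inv,
      QuotientGroup.mk_inv, e1, e2, ← QuotientGroup.mk_mul, e3, QuotientGroup.mk_mul]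
    group
  -- (c)
  have hvan : ∀ g : G, g ∉ (P : Subgroup G) → ∀ χ : IrrCharacter G, (χ : G → ℂ) 1 ≠ 1 →
      (χ : G → ℂ) g = 0 := by
    intro g hg χ hχ
    apply vanish_of_card_le g _ χ hχ
    obtain ⟨a, ha, c, hc, d, hd, rfl⟩ := hdec g
    have ha1 : a ≠ 1 := by
      rintro rfl
      apply hg
      rw [one_mul]
      exact mul_mem (hCP hc) (hDP hd)
    -- C_D(a c) = 1
    have hfix : ∀ e ∈ D, (a * c) * e = e * (a * c) → e = 1 := by
      intro e he hcomm
      obtain ⟨k, hk⟩ := (P.2 ⟨c, hCP hc⟩)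
      have hk' : c ^ p ^ k = 1 := by
        have := congrArg Subtype.val hk
        simpa using this
      have hpow : (a * c) ^ p ^ k = a ^ p ^ k := by
        rw [(show Commute a c from hACcomm a ha c hc).mul_pow, hk', mul_one]
      have hne : a ^ p ^ k ≠ 1 := by
        intro h1
        have h2 : orderOf a ∣ p ^ k := orderOf_dvd_of_pow_eq_one h1
        have h3 : orderOf a ∣ Nat.card A := by
          have := orderOf_dvd_natCard (⟨a, ha⟩ : A)
          rwa [Subgroup.orderOf_mk] at this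
        have h4 : (orderOf a).Coprime (p ^ k) :=
          Nat.Coprime.pow_right k (Nat.Coprime.coprime_dvd_left h3 hcop)
        have h5 : orderOf a = 1 := Nat.Coprime.eq_one_of_dvd h4 h2
        exact ha1 (orderOf_eq_one_iff.1 h5)
      have hc2 : Commute (a * c) e := hcomm
      have hc3 : Commute ((a * c) ^ p ^ k) e := hc2.pow_left _
      rw [hpow] at hc3
      exact hfpf _ (pow_mem ha _) hne e he hc3
    -- conjugacy
    let f : D → D := fun e => ⟨((a * c)⁻¹ * (e : G)⁻¹ * (a * c)) * (e : G),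
      mul_mem (by
        have := hDn.conj_mem (e : G)⁻¹ (inv_mem e.2) (a * c)⁻¹
        simpa using this) e.2⟩
    have hinj : Function.Injective f := by
      intro e e' hee
      have h1 : ((a * c)⁻¹ * (e : G)⁻¹ * (a * c)) * (e : G) =
          ((a * c)⁻¹ * (e' : G)⁻¹ * (a * c)) * (e' : G) := congrArg Subtype.val hee
      have h2 : (a * c) * ((e' : G) * (e : G)⁻¹) = ((e' : G) * (e : G)⁻¹) * (a * c) := by
        have h3 : (e : G)⁻¹ * (a * c) * (e : G) = (e' : G)⁻¹ * (a * c) * (e' : G) := by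
          have := congrArg (fun z => (a * c) * z) h1
          simpa [mul_assoc] using this
        calc (a * c) * ((e' : G) * (e : G)⁻¹)
            = (e' : G) * ((e' : G)⁻¹ * (a * c) * (e' : G)) * (e : G)⁻¹ := by group
          _ = (e' : G) * ((e : G)⁻¹ * (a * c) * (e : G)) * (e : G)⁻¹ := by rw [h3]
          _ = ((e' : G) * (e : G)⁻¹) * (a * c) := by group
      have h4 := hfix _ (mul_mem e'.2 (inv_mem e.2)) h2
      apply Subtype.ext
      exact (mul_inv_eq_one.1 h4).symm
    obtain ⟨e, he⟩ := (Finite.injective_iff_surjective.1 hinj) ⟨d, hd⟩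
    have he' : ((a * c)⁻¹ * (e : G)⁻¹ * (a * c)) * (e : G) = d := congrArg Subtype.val he
    have hconj : a * c * d = (e : G)⁻¹ * (a * c) * (e : G) := by
      rw [← he']; group
    have hinf : D ⊓ Subgroup.centralizer ({a * c * d} : Set G) = ⊥ := by
      rw [eq_bot_iff]
      intro z hz
      obtain ⟨hzD, hzc⟩ := Subgroup.mem_inf.1 hz
      rw [Subgroup.mem_centralizer_singleton_iff] at hzc
      have h1 : (a * c) * ((e : G) * z * (e : G)⁻¹) = ((e : G) * z * (e : G)⁻¹) * (a * c) := by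
        rw [hconj] at hzc
        calc (a * c) * ((e : G) * z * (e : G)⁻¹)
            = (e : G) * (((e : G)⁻¹ * (a * c) * (e : G)) * z) * (e : G)⁻¹ := by group
          _ = (e : G) * (z * ((e : G)⁻¹ * (a * c) * (e : G))) * (e : G)⁻¹ := by rw [hzc]
          _ = ((e : G) * z * (e : G)⁻¹) * (a * c) := by group
      have h2 := hfix _ (hDn.conj_mem z hzD (e : G)) h1
      rw [Subgroup.mem_bot]
      have h3 : (e : G) * z = (e : G) := by
        have := mul_inv_eq_one.1 h2
        exact this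
      exact mul_eq_left.1 h3
    calc Nat.card (Subgroup.centralizer ({a * c * d} : Set G)) ≤ D.index :=
          card_le_index_of_inf_eq_bot _ D hinf
      _ ≤ (commutator G).index :=
          Nat.le_of_dvd (Nat.pos_of_ne_zero Subgroup.index_ne_zero_of_finite)
            (Subgroup.index_dvd_of_le hG')
  -- (d)
  intro x y χ hx hy ⟨p₁, q₁, a, b, hp₁, hq₁, hpq, hxo, hyo⟩
  by_cases hχ : (χ : G → ℂ) 1 = 1
  · exact Cfsg.Agent.Lib.Helper15.linear_mul (Cfsg.Agent.Lib.Helper74.IrrCharacter.isCharacter χ) hχ x y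
  have hmemP : ∀ {z : G} {r s : ℕ}, r.Prime → z ≠ 1 → orderOf z = r ^ s → z ∈ (P : Subgroup G) →
      r = p := by
    intro z r s hr hz hzo hzP
    obtain ⟨k, hk⟩ := (P.2 ⟨z, hzP⟩)
    have hk' : z ^ p ^ k = 1 := by
      have := congrArg Subtype.val hk
      simpa using this
    exact prime_eq_of_order' hp.out hr hk' hz hzo
  by_cases hyP : y ∈ (P : Subgroup G)
  · have hxP : x ∉ (P : Subgroup G) := by
      intro hxP
      exact hpq ((hmemP hp₁ hx hxo hxP).trans (hmemP hq₁ hy hyo hyP).symm)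
    have hxy : x * y ∉ (P : Subgroup G) := by
      intro h1
      exact hxP ((Subgroup.mul_mem_cancel_right _ hyP).1 h1)
    rw [hvan _ hxy χ hχ, hvan _ hxP χ hχ, zero_mul]
  · have hxy : x * y ∉ (P : Subgroup G) := by
      intro h1
      by_cases hxP : x ∈ (P : Subgroup G)
      · exact hyP ((Subgroup.mul_mem_cancel_left _ hxP).1 h1)
      · apply hxP
        rw [← QuotientGroup.eq_one_iff]
        have e1 : ((x : G) : G ⧸ (P : Subgroup G)) * ((y : G) : G ⧸ (P : Subgroup G)) = 1 := by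
          rw [← QuotientGroup.mk_mul]
          exact (QuotientGroup.eq_one_iff _).2 h1
        have e2 : ((x : G) : G ⧸ (P : Subgroup G)) = ((y : G) : G ⧸ (P : Subgroup G))⁻¹ :=
          eq_inv_of_mul_eq_one_left e1
        have e3 : ((x : G) : G ⧸ (P : Subgroup G)) ^ p₁ ^ a = 1 := by
          rw [← QuotientGroup.mk_pow, ← hxo, pow_orderOf_eq_one]; rfl
        have e4 : ((x : G) : G ⧸ (P : Subgroup G)) ^ q₁ ^ b = 1 := by
          rw [e2, inv_pow, ← QuotientGroup.mk_pow, ← hyo, pow_orderOf_eq_one]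
          simp
        have e5 : orderOf ((x : G) : G ⧸ (P : Subgroup G)) = 1 :=
          Nat.Coprime.eq_one_of_dvd
            (Nat.Coprime.coprime_dvd_left (orderOf_dvd_of_pow_eq_one e3)
              (Nat.Coprime.pow a b ((Nat.coprime_primes hp₁ hq₁).2 hpq)))
            (orderOf_dvd_of_pow_eq_one e4)
        exact orderOf_eq_one_iff.1 e5
    rw [hvan _ hxy χ hχ, hvan _ hyP χ hχ, mul_zero]

end Cfsg.Agent.Lib.Helper71.MulChar
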