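import Mathlib
import Cfsg.Agent.Lib.Helper71.MulChar.Defs
import Cfsg.Agent.Lib.Helper3.IndComb

set_option autoImplicit false
open Cfsg

namespace Cfsg.Agent.Lib.Helper71.MulChar

theorem prime_eq_of_order {G : Type*} [Group G] {l p a : ℕ} (hl : l.Prime) (hp : p.Prime)
    (hG : IsPGroup l G) {x : G} (hx : x ≠ 1) (hxo : orderOf x = p ^ a) : p = l := by
  obtain ⟨k, hk⟩ := hG x
  have h1 : orderOf x ∣ l ^ k := orderOf_dvd_of_pow_eq_one hk
  have ha : a ≠ 0 := by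
    rintro rfl
    rw [pow_zero, orderOf_eq_one_iff] at hxo
    exact hx hxo
  have h2 : p ∣ l ^ k := (dvd_pow_self p ha).trans (hxo ▸ h1)
  exact (Nat.prime_dvd_prime_iff_eq hp hl).1 (hp.dvd_of_dvd_pow h2)

theorem pieceB0 {G : Type*} [Group G] [Finite G]
    (h : (∃ p : ℕ, p.Prime ∧ IsPGroup p G) ∨ IsMulCommutative G) : H1 G := by
  intro x y χ hx hy ⟨p, q, a, b, hp, hq, hpq, hxo, hyo⟩
  rcases h with ⟨l, hl, hG⟩ | hc
  · exact absurd ((prime_eq_of_order hl hp hG hx hxo).trans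
      (prime_eq_of_order hl hq hG hy hyo).symm) hpq
  · obtain ⟨lam, hlam⟩ := Cfsg.Agent.Lib.Helper3.IsIrrCharacter.exists_hom_of_comm
      (fun a b => hc.is_comm.comm a b) χ.2
    rw [hlam]
    simp

end Cfsg.Agent.Lib.Helper71.MulChar
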