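import Mathlib
import Cfsg.Agent.Lib.Helper71.MulChar.Defs
import Cfsg.Agent.Lib.Helper71.MulChar.Col
import Cfsg.Agent.Lib.Helper81.Schur
import Cfsg.Agent.Lib.Helper78.DefectZero
import Cfsg.Agent.Lib.Helper74.CharMore

set_option autoImplicit false
open Cfsg

namespace Cfsg.Agent.Lib.Helper71.MulChar

open Cfsg.Agent.Lib.Helper74

variable {G : Type*} [Group G] [Finite G]

/-- Step 1 -/
theorem prod_zero (h : H1 G) (χ : IrrCharacter G) (hχ : (χ : G → ℂ) 1 ≠ 1) {x y : G}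
    (hx : x ≠ 1) (hy : y ≠ 1) {p q a b : ℕ} (hp : p.Prime) (hq : q.Prime) (hpq : p ≠ q)
    (hxo : orderOf x = p ^ a) (hyo : orderOf y = q ^ b) :
    (χ : G → ℂ) x * (χ : G → ℂ) y = 0 := by
  have := Fintype.ofFinite G
  have h1 := Cfsg.Agent.Lib.Helper81.IsIrrCharacter.sum_mul_conj χ.2 x y
  have h2 : ∀ t : G, (χ : G → ℂ) (x * (t * y * t⁻¹)) = (χ : G → ℂ) x * (χ : G → ℂ) y := by
    intro t
    rw [h x (t * y * t⁻¹) χ hx (by
      intro h3
      apply hy
      have : t * y * t⁻¹ = t * 1 * t⁻¹ := by rw [h3]; group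
      simpa using this) ⟨p, q, a, b, hp, hq, hpq, hxo, by
        rw [← hyo]
        exact (MulAut.conj t).orderOf_eq y⟩,
      (IsCharacter.isClassFunction (IrrCharacter.isCharacter χ)) y t]
  rw [Finset.sum_congr rfl (fun t _ => h2 t), Finset.sum_const, nsmul_eq_mul, Finset.card_univ] at h1
  have hc : (Fintype.card G : ℂ) ≠ 0 := by
    exact_mod_cast Fintype.card_ne_zero
  have h10 : (χ : G → ℂ) 1 ≠ 0 := Cfsg.Agent.Lib.Helper74.IsIrrCharacter.one_ne_zero χ.2
  have h3 : (χ : G → ℂ) x * (χ : G → ℂ) y * ((χ : G → ℂ) 1 - 1) = 0 := by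
    have h4 : (χ : G → ℂ) x * (χ : G → ℂ) y = (χ : G → ℂ) x * (χ : G → ℂ) y / (χ : G → ℂ) 1 := by
      apply mul_left_cancel₀ hc
      rw [h1]; ring
    field_simp at h4
    linear_combination h4
  rcases mul_eq_zero.1 h3 with h5 | h5
  · exact h5
  · exact absurd (sub_eq_zero.1 h5) hχ

/-- `χ` vanishes on the nonidentity `r`-elements -/
def V (χ : IrrCharacter G) (r : ℕ) : Prop :=
  ∀ x : G, x ≠ 1 → (∃ a : ℕ, orderOf x = r ^ a) → (χ : G → ℂ) x = 0

theorem V_or (h : H1 G) (χ : IrrCharacter G) (hχ : (χ : G → ℂ) 1 ≠ 1) {r s : ℕ} (hr : r.Prime)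
    (hs : s.Prime) (hrs : r ≠ s) : V χ r ∨ V χ s := by
  by_contra hcon
  push_neg at hcon
  obtain ⟨h1, h2⟩ := hcon
  unfold V at h1 h2
  push_neg at h1 h2
  obtain ⟨x, hx, ⟨a, hxo⟩, hx0⟩ := h1
  obtain ⟨y, hy, ⟨b, hyo⟩, hy0⟩ := h2
  exact (mul_ne_zero hx0 hy0) (prod_zero h χ hχ hx hy hr hs hrs hxo hyo)

theorem V_dvd (χ : IrrCharacter G) {r : ℕ} (hr : r.Prime) (hV : V χ r) :
    r ^ (Nat.card G).factorization r ∣ charDegree (χ : G → ℂ) := by
  haveI : Fact r.Prime := ⟨hr⟩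
  have := Fintype.ofFinite G
  obtain ⟨R⟩ : Nonempty (Sylow r G) := inferInstance
  rw [← Sylow.card_eq_multiplicity R]
  apply Cfsg.Agent.Lib.Helper78.card_dvd_charDegree_of_vanish (IrrCharacter.isCharacter χ)
  intro u hu hu1
  apply hV u hu1
  obtain ⟨k, hk⟩ := IsPGroup.iff_orderOf.1 R.2 ⟨u, hu⟩
  exact ⟨k, by rw [← hk, Subgroup.orderOf_mk]⟩

theorem deg_sq_lt (χ : IrrCharacter G) (hχ : (χ : G → ℂ) 1 ≠ 1) :
    charDegree (χ : G → ℂ) ^ 2 < Nat.card G := by
  classical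
  have h1 := col_split (1 : G)
  have h2 : Nat.card (Subgroup.centralizer ({1} : Set G)) = Nat.card G := by
    have : Subgroup.centralizer ({1} : Set G) = ⊤ := by
      rw [eq_top_iff]
      intro g _
      rw [Subgroup.mem_centralizer_singleton_iff]
      simp
    rw [this, Subgroup.card_top]
  rw [h2] at h1
  have h3 : ‖(χ : G → ℂ) 1‖ ^ 2 ≤ ∑ χ ∈ Finset.univ.filter (fun χ : IrrCharacter G => (χ : G → ℂ) 1 ≠ 1),
        ‖(χ : G → ℂ) 1‖ ^ 2 :=
    Finset.single_le_sum (f := fun χ : IrrCharacter G => ‖(χ : G → ℂ) 1‖ ^ 2)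
      (fun χ _ => by positivity) (Finset.mem_filter.2 ⟨Finset.mem_univ _, hχ⟩)
  have h4 : (1 : ℝ) ≤ ((commutator G).index : ℝ) := by
    exact_mod_cast Nat.one_le_iff_ne_zero.2 Subgroup.index_ne_zero_of_finite
  rw [← IsCharacter.charDegree_eq (IrrCharacter.isCharacter χ)] at h3
  have h5 : ((charDegree (χ : G → ℂ) : ℝ)) ^ 2 < (Nat.card G : ℝ) := by
    have : ‖((charDegree (χ : G → ℂ) : ℕ) : ℂ)‖ = (charDegree (χ : G → ℂ) : ℝ) := by simp
    rw [this] at h3
    linarith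
  exact_mod_cast h5

theorem compl_lt (χ : IrrCharacter G) (hχ : (χ : G → ℂ) 1 ≠ 1) {p : ℕ} (hp : p.Prime)
    (hV : ∀ r : ℕ, r.Prime → r ≠ p → V χ r) :
    ordCompl[p] (Nat.card G) < ordProj[p] (Nat.card G) := by
  have hd : charDegree (χ : G → ℂ) ≠ 0 := (Cfsg.Agent.Lib.Helper74.IsIrrCharacter.charDegree_pos χ.2).ne'
  have hn : Nat.card G ≠ 0 := Nat.card_pos.ne'
  have h1 : ordCompl[p] (Nat.card G) ∣ charDegree (χ : G → ℂ) := by
    rw [← Nat.factorization_le_iff_dvd (Nat.ordCompl_pos p hn).ne' hd, Nat.factorization_ordCompl]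
    intro r
    by_cases hrp : r = p
    · subst hrp; simp
    rw [Finsupp.erase_ne hrp]
    by_cases hr : r.Prime
    · exact (hr.pow_dvd_iff_le_factorization hd).1 (V_dvd χ hr (hV r hr hrp))
    · rw [Nat.factorization_eq_zero_of_not_prime _ hr]; exact Nat.zero_le _
  have h2 := Nat.le_of_dvd (Nat.pos_of_ne_zero hd) h1
  have h3 := deg_sq_lt χ hχ
  have h4 : ordProj[p] (Nat.card G) * ordCompl[p] (Nat.card G) = Nat.card G :=
    Nat.ordProj_mul_ordCompl_eq_self _ _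
  have h5 : ordCompl[p] (Nat.card G) ^ 2 < ordProj[p] (Nat.card G) * ordCompl[p] (Nat.card G) := by
    rw [h4]
    exact lt_of_le_of_lt (Nat.pow_le_pow_left h2 2) h3
  rw [sq] at h5
  exact Nat.lt_of_mul_lt_mul_right h5

theorem proj_le_compl {n p q : ℕ} (hn : n ≠ 0) (hp : p.Prime) (hq : q.Prime) (hpq : p ≠ q) :
    ordProj[q] n ≤ ordCompl[p] n := by
  apply Nat.le_of_dvd (Nat.ordCompl_pos p hn)
  have h1 : ordProj[q] n ∣ ordProj[p] n * ordCompl[p] n := by
    rw [Nat.ordProj_mul_ordCompl_eq_self]; exact Nat.ordProj_dvd n q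
  exact Nat.Coprime.dvd_of_dvd_mul_left
    (Nat.Coprime.pow _ _ ((Nat.coprime_primes hq hp).2 hpq.symm)) h1

theorem pieceF (h : H1 G)
    (hp : ¬ ∃ p : ℕ, p.Prime ∧ IsPGroup p G) (hab : ¬ IsMulCommutative G) :
    ∃ p : ℕ, p.Prime ∧ IsPGroup p ↥(commutator G) ∧
      ∀ y : G, y ≠ 1 → (∃ q b : ℕ, q.Prime ∧ q ≠ p ∧ orderOf y = q ^ b) →
        Nat.card ↥(Subgroup.centralizer ({y} : Set G)) = (commutator G).index := by
  classical
  have hn : Nat.card G ≠ 0 := Nat.card_pos.ne'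
  -- a nonlinear character
  obtain ⟨χ₀, hχ₀⟩ : ∃ χ₀ : IrrCharacter G, (χ₀ : G → ℂ) 1 ≠ 1 := by
    by_contra hcon
    push_neg at hcon
    apply hab
    have h1 := card_eq_of_vanish (1 : G) (fun χ hχ => absurd (hcon χ) hχ)
    have h2 : Nat.card (Subgroup.centralizer ({1} : Set G)) = Nat.card G := by
      have : Subgroup.centralizer ({1} : Set G) = ⊤ := by
        rw [eq_top_iff]
        intro g _
        rw [Subgroup.mem_centralizer_singleton_iff]
        simp
      rw [this, Subgroup.card_top]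
    rw [h2] at h1
    have h3 := Subgroup.card_mul_index (commutator G)
    rw [← h1] at h3
    have h4 : Nat.card (commutator G) = 1 := by
      have : Nat.card (commutator G) * Nat.card G = 1 * Nat.card G := by rw [h3, one_mul]
      exact Nat.eq_of_mul_eq_mul_right (Nat.pos_of_ne_zero hn) this
    have h5 : commutator G = ⊥ := Subgroup.card_eq_one.1 h4
    refine ⟨⟨fun a b => ?_⟩⟩
    have h6 : a * b * a⁻¹ * b⁻¹ ∈ commutator G := by
      rw [commutator_def, ← commutatorElement_def]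
      exact Subgroup.commutator_mem_commutator (Subgroup.mem_top a) (Subgroup.mem_top b)
    rw [h5, Subgroup.mem_bot, ← commutatorElement_def, commutatorElement_eq_one_iff_mul_comm] at h6
    exact h6
  -- the prime p
  obtain ⟨p, hpp, hVp⟩ : ∃ p : ℕ, p.Prime ∧ ¬ V χ₀ p := by
    by_contra hcon
    push_neg at hcon
    have h1 := compl_lt χ₀ hχ₀ Nat.prime_two (fun r hr _ => hcon r hr)
    have h2 := V_dvd χ₀ Nat.prime_two (hcon 2 Nat.prime_two)
    have h3 := compl_lt χ₀ hχ₀ Nat.prime_three (fun r hr _ => hcon r hr)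
    have h4 := proj_le_compl hn Nat.prime_two Nat.prime_three (by norm_num)
    have h5 := proj_le_compl hn Nat.prime_three Nat.prime_two (by norm_num)
    omega
  have hV₀ : ∀ r : ℕ, r.Prime → r ≠ p → V χ₀ r := by
    intro r hr hrp
    exact (V_or h χ₀ hχ₀ hr hpp hrp).resolve_right hVp
  have hlt₀ := compl_lt χ₀ hχ₀ hpp hV₀
  have hVall : ∀ χ : IrrCharacter G, (χ : G → ℂ) 1 ≠ 1 → ∀ q : ℕ, q.Prime → q ≠ p → V χ q := by
    intro χ hχ q hq hqp
    by_contra hcon
    have h1 : ∀ r : ℕ, r.Prime → r ≠ q → V χ r := by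
      intro r hr hrq
      exact (V_or h χ hχ hr hq hrq).resolve_right hcon
    have h2 := compl_lt χ hχ hq h1
    have h3 := proj_le_compl hn hpp hq hqp.symm
    have h4 := proj_le_compl hn hq hpp hqp
    omega
  have hcent : ∀ y : G, y ≠ 1 → (∃ q b : ℕ, q.Prime ∧ q ≠ p ∧ orderOf y = q ^ b) →
        Nat.card ↥(Subgroup.centralizer ({y} : Set G)) = (commutator G).index := by
    intro y hy ⟨q, b, hq, hqp, hyo⟩
    exact card_eq_of_vanish y (fun χ hχ => hVall χ hχ q hq hqp y hy ⟨b, hyo⟩)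
  refine ⟨p, hpp, ?_, hcent⟩
  haveI : Fact p.Prime := ⟨hpp⟩
  rw [IsPGroup.iff_card]
  have hc0 : Nat.card (commutator G) ≠ 0 := Nat.card_pos.ne'
  refine ⟨_, Nat.eq_prime_pow_of_unique_prime_dvd (p := p) hc0 ?_⟩
  intro q hq hqd
  by_contra hqp
  haveI : Fact q.Prime := ⟨hq⟩
  obtain ⟨Q⟩ : Nonempty (Sylow q G) := inferInstance
  have hqG : q ∣ Nat.card G := hqd.trans (Subgroup.card_subgroup_dvd_card _)
  have hQcard := Sylow.card_eq_multiplicity Q
  have hpos : 0 < (Nat.card G).factorization q := hq.factorization_pos_of_dvd hn hqG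
  haveI : Nontrivial (Q : Subgroup G) := by
    rw [← Finite.one_lt_card_iff_nontrivial, hQcard]
    exact Nat.one_lt_pow hpos.ne' hq.one_lt
  haveI := IsPGroup.center_nontrivial Q.2
  obtain ⟨y, hy⟩ := exists_ne (1 : Subgroup.center (Q : Subgroup G))
  have hy1 : ((y : (Q : Subgroup G)) : G) ≠ 1 := by
    intro h1
    apply hy
    apply Subtype.ext
    apply Subtype.ext
    exact h1
  obtain ⟨k, hk⟩ := IsPGroup.iff_orderOf.1 Q.2 (y : (Q : Subgroup G))
  have h1 := hcent ((y : (Q : Subgroup G)) : G) hy1 ⟨q, k, hq, hqp, by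
    rw [← hk, Subgroup.orderOf_coe]⟩
  have h2 : (Q : Subgroup G) ≤ Subgroup.centralizer ({((y : (Q : Subgroup G)) : G)} : Set G) := by
    intro z hz
    rw [Subgroup.mem_centralizer_singleton_iff]
    have := Subgroup.mem_center_iff.1 y.2 ⟨z, hz⟩
    exact congrArg Subtype.val this
  have h3 : q ^ (Nat.card G).factorization q ∣ (commutator G).index := by
    rw [← h1, ← hQcard]
    exact Subgroup.card_dvd_of_le h2
  have h4 : q ^ ((Nat.card G).factorization q + 1) ∣ Nat.card G := by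
    have h5 := mul_dvd_mul hqd h3
    rw [Subgroup.card_mul_index (commutator G)] at h5
    rw [pow_succ, mul_comm]
    exact h5
  exact Nat.pow_succ_factorization_not_dvd hn hq h4

end Cfsg.Agent.Lib.Helper71.MulChar
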