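import Mathlib
import Cfsg.Agent.Lib.Helper71.MulChar.Defs
import Cfsg.Agent.Lib.Helper67.Basic
import Cfsg.Agent.S0041

/-! Piece [S] of helper71's farm for S4756 (written by helper52): the group theoretic structure. -/

set_option autoImplicit false
set_option linter.unusedSectionVars false
open Cfsg
namespace Cfsg.Agent.Lib.Helper71.MulChar

open Subgroup
open scoped commutatorElement

namespace S

variable {G : Type*} [Group G] [Finite G]

theorem comm_mem (a b : G) : a * b * a⁻¹ * b⁻¹ ∈ commutator G := by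
  have h := commutator_mem_commutator (mem_top a) (mem_top b)
  rwa [commutatorElement_def] at h

/-- if `|C(y)| = |G : G'|` then the class of `y` is the whole coset `G' y`. -/
theorem exists_conj_eq {y : G}
    (hy : Nat.card ↥(centralizer ({y} : Set G)) = (commutator G).index) :
    ∀ d ∈ commutator G, ∃ t : G, t * y * t⁻¹ = d * y := by
  have h1 : (ConjClasses.mk y).carrier.ncard = Nat.card (commutator G) := by
    rw [Cfsg.Agent.Lib.Helper67.ncard_carrier_eq_index]
    have e1 := (centralizer ({y} : Set G)).card_mul_index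
    have e2 := (commutator G).card_mul_index
    rw [hy] at e1
    have h0 : 0 < (commutator G).index := Nat.pos_of_ne_zero index_ne_zero_of_finite
    apply Nat.eq_of_mul_eq_mul_left h0
    rw [e1, mul_comm, e2]
  have h2 : (ConjClasses.mk y).carrier ⊆ (fun d : G => d * y) '' (commutator G : Set G) := by
    intro g hg
    rw [ConjClasses.mem_carrier_iff_mk_eq, ConjClasses.mk_eq_mk_iff_isConj, isConj_iff] at hg
    obtain ⟨c, hc⟩ := hg
    refine ⟨g * y⁻¹, ?_, by simp⟩
    have h3 : g * y⁻¹ = c⁻¹ * y * c⁻¹⁻¹ * y⁻¹ := by rw [← hc]; group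
    rw [h3]
    exact comm_mem _ _
  have h3 : ((fun d : G => d * y) '' (commutator G : Set G)).ncard = Nat.card (commutator G) := by
    rw [Set.ncard_image_of_injective _ (mul_left_injective y)]
    rfl
  have h4 := Set.eq_of_subset_of_ncard_le h2 (by rw [h1, h3]) (Set.toFinite _)
  intro d hd
  have h5 : d * y ∈ (ConjClasses.mk y).carrier := by rw [h4]; exact ⟨d, hd, rfl⟩
  rw [ConjClasses.mem_carrier_iff_mk_eq, ConjClasses.mk_eq_mk_iff_isConj, isConj_comm,
    isConj_iff] at h5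
  exact h5

theorem eq_one_of_commute {p : ℕ} (hpp : p.Prime) (hD : IsPGroup p ↥(commutator G)) {y : G}
    {q b : ℕ} (hq : q.Prime) (hqp : q ≠ p) (hyo : orderOf y = q ^ b)
    (hy : Nat.card ↥(centralizer ({y} : Set G)) = (commutator G).index) {d : G}
    (hd : d ∈ commutator G) (hc : d * y = y * d) : d = 1 := by
  have : Fact p.Prime := ⟨hpp⟩
  obtain ⟨t, ht⟩ := exists_conj_eq hy d hd
  have h1 : orderOf (d * y) = orderOf y := by
    rw [← ht]
    exact (MulAut.conj t).orderOf_eq y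
  obtain ⟨n, hn⟩ := IsPGroup.iff_orderOf.1 hD ⟨d, hd⟩
  rw [Subgroup.orderOf_mk] at hn
  have hco : (orderOf d).Coprime (orderOf y) := by
    rw [hn, hyo]
    exact Nat.Coprime.pow _ _ ((Nat.coprime_primes hpp hq).2 hqp.symm)
  rw [Commute.orderOf_mul_eq_mul_orderOf_of_coprime hc hco] at h1
  have h2 : orderOf d = 1 := Nat.eq_of_mul_eq_mul_right (orderOf_pos y) (by rw [h1, one_mul])
  exact orderOf_eq_one_iff.1 h2

/-- if `C_D(y) = 1` then `e ↦ [e, y]` is a bijection of `D`. -/
theorem exists_comm_eq {D : Subgroup G} (hDn : D.Normal) {y : G}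
    (hfix : ∀ d ∈ D, d * y = y * d → d = 1) :
    ∀ d ∈ D, ∃ e ∈ D, e * y * e⁻¹ * y⁻¹ = d := by
  let f : D → D := fun e => ⟨e * y * (e : G)⁻¹ * y⁻¹, by
    have h : (e : G) * y * (e : G)⁻¹ * y⁻¹ = e * (y * (e : G)⁻¹ * y⁻¹) := by group
    rw [h]
    exact mul_mem e.2 (hDn.conj_mem _ (inv_mem e.2) y)⟩
  have hinj : Function.Injective f := by
    intro e e' h
    have h1 : (e : G) * y * (e : G)⁻¹ * y⁻¹ = e' * y * (e' : G)⁻¹ * y⁻¹ := congrArg Subtype.val h
    have h3 : (e : G) * y * (e : G)⁻¹ = e' * y * (e' : G)⁻¹ := mul_right_cancel h1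
    have h2 : ((e' : G)⁻¹ * e) * y = y * ((e' : G)⁻¹ * e) := by
      calc ((e' : G)⁻¹ * e) * y = (e' : G)⁻¹ * (e * y * (e : G)⁻¹) * e := by group
        _ = (e' : G)⁻¹ * (e' * y * (e' : G)⁻¹) * e := by rw [h3]
        _ = _ := by group
    have h4 := hfix _ (mul_mem (inv_mem e'.2) e.2) h2
    rw [inv_mul_eq_one] at h4
    exact Subtype.ext h4.symm
  have hsurj := Finite.surjective_of_injective hinj
  intro d hd
  obtain ⟨e, he⟩ := hsurj ⟨d, hd⟩
  exact ⟨e, e.2, congrArg Subtype.val he⟩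

end S

open S in
theorem pieceS {G : Type*} [Group G] [Finite G] (p : ℕ) (hpp : p.Prime)
    (hp : ¬ ∃ p : ℕ, p.Prime ∧ IsPGroup p G) (hab : ¬ IsMulCommutative G)
    (hD : IsPGroup p ↥(commutator G))
    (hC : ∀ y : G, y ≠ 1 → (∃ q b : ℕ, q.Prime ∧ q ≠ p ∧ orderOf y = q ^ b) →
        Nat.card ↥(Subgroup.centralizer ({y} : Set G)) = (commutator G).index) :
    Alt3 G := by
  have hF : Fact p.Prime := ⟨hpp⟩
  have hDn : (commutator G).Normal := inferInstance
  obtain ⟨P, hDP⟩ := hD.exists_le_sylow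
  have hPn : (P : Subgroup G).Normal := by
    constructor
    intro x hx g
    have h : g * x * g⁻¹ = (g * x * g⁻¹ * x⁻¹) * x := by group
    rw [h]
    exact mul_mem (hDP (comm_mem g x)) hx
  obtain ⟨A, hA⟩ := exists_left_complement'_of_coprime P.card_coprime_index
  have hAP : A ⊓ P = ⊥ := hA.disjoint.eq_bot
  have hsup : A ⊔ P = ⊤ := hA.sup_eq_top
  have hAcop : (Nat.card A).Coprime p := by
    rw [← hA.index_eq_card]
    exact ((Nat.Prime.coprime_iff_not_dvd hpp).2 P.not_dvd_index).symm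
  have hA1 : A ≠ ⊥ := by
    rintro rfl
    rw [bot_sup_eq] at hsup
    apply hp
    refine ⟨p, hpp, fun g => ?_⟩
    obtain ⟨k, hk⟩ := P.2 ⟨g, by rw [hsup]; exact mem_top g⟩
    exact ⟨k, by simpa using congrArg Subtype.val hk⟩
  have hAcomm : ∀ a ∈ A, ∀ b ∈ A, a * b = b * a := by
    intro a ha b hb
    have h1 : a * b * a⁻¹ * b⁻¹ ∈ A ⊓ P :=
      mem_inf.2 ⟨mul_mem (mul_mem (mul_mem ha hb) (inv_mem ha)) (inv_mem hb), hDP (comm_mem a b)⟩
    rw [hAP, mem_bot, mul_inv_eq_one, mul_inv_eq_iff_eq_mul] at h1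
    exact h1
  have hfixA : ∀ a ∈ A, a ≠ 1 → ∀ d ∈ commutator G, a * d = d * a → d = 1 := by
    intro a ha ha1 d hd hc
    have ho1 : orderOf a ≠ 1 := by rwa [Ne, orderOf_eq_one_iff]
    have hq : (orderOf a).minFac.Prime := Nat.minFac_prime ho1
    have hqd : (orderOf a).minFac ∣ orderOf a := Nat.minFac_dvd _
    have hyo : orderOf (a ^ (orderOf a / (orderOf a).minFac)) = (orderOf a).minFac :=
      orderOf_pow_orderOf_div (orderOf_pos a).ne' hqd
    have hqp : (orderOf a).minFac ≠ p := by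
      intro h
      have h1 : p ∣ Nat.card A := h ▸ hqd.trans (Subgroup.orderOf_dvd_natCard A ha)
      exact hpp.one_lt.ne' (Nat.eq_one_of_dvd_coprimes hAcop h1 dvd_rfl)
    have hy1 : a ^ (orderOf a / (orderOf a).minFac) ≠ 1 := by
      intro h
      rw [h, orderOf_one] at hyo
      exact hq.one_lt.ne hyo
    have hex : ∃ q b : ℕ, q.Prime ∧ q ≠ p ∧ orderOf (a ^ (orderOf a / (orderOf a).minFac)) = q ^ b :=
      ⟨_, 1, hq, hqp, by rw [hyo, pow_one]⟩
    refine eq_one_of_commute hpp hD hq hqp (b := 1) (by rw [hyo, pow_one]) (hC _ hy1 hex) hd ?_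
    exact (Commute.pow_left (show Commute a d from hc) _).eq.symm
  have hD1 : commutator G ≠ ⊥ := by
    intro h
    apply hab
    refine ⟨⟨fun a b => ?_⟩⟩
    have h1 := comm_mem a b
    rw [h, mem_bot, mul_inv_eq_one, mul_inv_eq_iff_eq_mul] at h1
    exact h1
  -- `A` is cyclic
  have hcyc : IsCyclic A := by
    set V : Subgroup G := commutator G ⊓ centralizer (commutator G : Set G) with hV
    have hVn : V.Normal := inferInstance
    have hVc : IsMulCommutative V :=
      ⟨⟨fun a b => Subtype.ext (mem_centralizer_iff.1 b.2.2 a a.2.1)⟩⟩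
    have hV1 : V ≠ ⊥ := by
      have : Nontrivial ↥(commutator G) := (nontrivial_iff_ne_bot _).2 hD1
      have hcn := hD.center_nontrivial
      obtain ⟨z, hz⟩ := exists_ne (1 : center ↥(commutator G))
      intro hb
      apply hz
      have hm : ((z : ↥(commutator G)) : G) ∈ V := by
        refine mem_inf.2 ⟨(z : ↥(commutator G)).2, ?_⟩
        rw [mem_centralizer_iff]
        intro g hg
        exact congrArg Subtype.val (mem_center_iff.1 z.2 ⟨g, hg⟩)
      rw [hb, mem_bot] at hm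
      exact Subtype.ext (Subtype.ext hm)
    refine Cfsg.Agent.S0041.result A V hV1 ?_ ?_ (Or.inl ⟨⟨fun a b => Subtype.ext (hAcomm a a.2 b b.2)⟩⟩)
    · rw [normalizer_eq_top_iff.2 hVn]
      exact le_top
    · intro a ha ha1
      rw [eq_bot_iff]
      intro v hv
      rw [mem_bot]
      exact hfixA a ha ha1 v hv.1.1 (mem_centralizer_singleton_iff.1 hv.2).symm
  obtain ⟨a, ha, ha1⟩ : ∃ a ∈ A, a ≠ 1 := by
    by_contra hcon
    push Not at hcon
    exact hA1 ((eq_bot_iff_forall A).2 hcon)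
  have hbij := exists_comm_eq hDn (y := a) (fun d hd hc => hfixA a ha ha1 d hd hc.symm)
  -- elements of `P` commuting with `a` centralize `A`
  have hX : ∀ x : G, x * a = a * x → x ∈ centralizer (A : Set G) := by
    intro x hx
    rw [mem_centralizer_iff]
    intro b hb
    have hba := hAcomm b hb a ha
    have h1 : a * (b * x * b⁻¹ * x⁻¹) = (b * x * b⁻¹ * x⁻¹) * a := by
      have e1 : a * b⁻¹ = b⁻¹ * a := by
        rw [eq_inv_mul_iff_mul_eq, ← mul_assoc, hba, mul_assoc, mul_inv_cancel, mul_one]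
      have e2 : a * x⁻¹ = x⁻¹ * a := by
        rw [eq_inv_mul_iff_mul_eq, ← mul_assoc, hx, mul_assoc, mul_inv_cancel, mul_one]
      calc a * (b * x * b⁻¹ * x⁻¹) = (a * b) * x * b⁻¹ * x⁻¹ := by group
        _ = b * (a * x) * b⁻¹ * x⁻¹ := by rw [← hba]; group
        _ = b * x * (a * b⁻¹) * x⁻¹ := by rw [← hx]; group
        _ = b * x * b⁻¹ * (a * x⁻¹) := by rw [e1]; group
        _ = _ := by rw [e2]; group
    have h2 := hfixA a ha ha1 _ (comm_mem b x) h1
    rw [mul_inv_eq_one, mul_inv_eq_iff_eq_mul] at h2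
    exact h2
  have hcomm : ⁅A, (P : Subgroup G)⁆ = commutator G := by
    apply le_antisymm
    · exact commutator_mono le_top le_top
    · intro d hd
      obtain ⟨e, he, rfl⟩ := hbij d hd
      rw [commutator_comm]
      have := commutator_mem_commutator (hDP he) ha
      rwa [commutatorElement_def] at this
  have hCD : ∀ v ∈ (P : Subgroup G) ⊓ centralizer (A : Set G), v ∈ commutator G → v = 1 := by
    intro v hv hvD
    exact hfixA a ha ha1 v hvD (mem_centralizer_iff.1 hv.2 a ha)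
  refine ⟨p, hF, P, A, hPn, hcyc, hA1, hAcop, hsup, ?_, ?_, ?_, ?_, ?_⟩
  · refine ⟨⟨fun c c' => Subtype.ext ?_⟩⟩
    have h1 : (c : G) * c' * (c : G)⁻¹ * (c' : G)⁻¹ = 1 :=
      hCD _ (mul_mem (mul_mem (mul_mem c.2 c'.2) (inv_mem c.2)) (inv_mem c'.2)) (comm_mem _ _)
    rw [mul_inv_eq_one, mul_inv_eq_iff_eq_mul] at h1
    exact h1
  · rw [hcomm]; exact hDn
  · rw [hcomm]
    apply le_antisymm (sup_le inf_le_left hDP)
    intro u hu
    obtain ⟨e, he, hee⟩ := hbij _ (comm_mem u a)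
    have h3 : e * a * e⁻¹ = u * a * u⁻¹ := mul_right_cancel hee
    have h4 : (e⁻¹ * u) * a = a * (e⁻¹ * u) := by
      calc (e⁻¹ * u) * a = e⁻¹ * (u * a * u⁻¹) * u := by group
        _ = e⁻¹ * (e * a * e⁻¹) * u := by rw [h3]
        _ = _ := by group
    have h5 : e⁻¹ * u ∈ (P : Subgroup G) ⊓ centralizer (A : Set G) :=
      mem_inf.2 ⟨mul_mem (inv_mem (hDP he)) hu, hX _ h4⟩
    have h6 : u = e * (e⁻¹ * u) := by group
    rw [h6]
    exact mul_mem ((le_sup_right : commutator G ≤ _) he) ((le_sup_left : _ ≤ _ ⊔ commutator G) h5)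
  · rw [hcomm, eq_bot_iff]
    intro v hv
    rw [mem_bot]
    exact hCD v hv.1 hv.2
  · rw [hcomm]
    exact hfixA

end Cfsg.Agent.Lib.Helper71.MulChar
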